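import Cfsg.Agent.OD.Pre
import Cfsg.Agent.H6.LyM.D
set_option autoImplicit false
set_option maxRecDepth 100000
set_option Elab.async false
set_option linter.all false
namespace CfH6.LyM
open CfH6
theorem r2 : ∀ r ∈ (((LyB.rels.drop 12).drop 12).take 12), evw (evU sem ms LyB.il) r = 1 := U.rels (by decide +kernel)
end CfH6.LyM
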